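import Mathlib
import Cfsg.Agent.Lib.Helper24.J2Ord.Defs
import Cfsg.Agent.Lib.Helper24.J2Ord.E1
import Cfsg.Agent.Lib.Helper24.J2Ord.E2

/-! Piece [E4] of the S3313 farm, by character sums. -/

set_option autoImplicit false
set_option linter.unusedSectionVars false

namespace Cfsg.Agent.Lib.Helper54.J2Ord

open Cfsg.Agent.Lib.Helper24.J2Ord

variable {H : Type*} [Group H] [Finite H] {Q K : Subgroup H} {z : H}

lemma psi_comm_E4 (a b : H) : psi a b = psi b a := by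
  unfold psi
  by_cases h : a * b = b * a
  · rw [if_pos h, if_pos h.symm]
  · rw [if_neg h, if_neg (fun h' => h h'.symm)]

lemma chi_nonneg_E4 (a : H) : 0 ≤ 1 + chi a := by
  unfold chi; split_ifs <;> norm_num

lemma psi_nonneg_E4 (a b : H) : 0 ≤ 1 + psi a b := by
  unfold psi; split_ifs <;> norm_num

lemma sum_psi_E4 (c : Cfg H Q K z) [Fintype ↥Q] (d : H) (hdQ : d ∈ Q) (hd : ¬ (d = 1 ∨ d = z)) :
    ∑ a : ↥Q, psi (a : H) d = 0 := by
  obtain ⟨a0, ha0Q, ha0⟩ : ∃ a0 ∈ Q, d * a0 ≠ a0 * d := by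
    by_contra hcon
    push Not at hcon
    exact hd (c.cen d hdQ hcon)
  have h1 : psi a0 d = -1 := by
    unfold psi
    rw [if_neg (fun h => ha0 h.symm)]
  have h2 : ∑ a : ↥Q, psi (a : H) d = ∑ a : ↥Q, psi (((⟨a0, ha0Q⟩ : ↥Q) * a : ↥Q) : H) d :=
    (Equiv.sum_comp (Equiv.mulLeft (⟨a0, ha0Q⟩ : ↥Q)) (fun a : ↥Q => psi (a : H) d)).symm
  have h3 : ∑ a : ↥Q, psi (((⟨a0, ha0Q⟩ : ↥Q) * a : ↥Q) : H) d = - ∑ a : ↥Q, psi (a : H) d := by
    rw [← Finset.sum_neg_distrib]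
    refine Finset.sum_congr rfl fun a _ => ?_
    rw [Subgroup.coe_mul, psi_mul c ha0Q a.2 hdQ, h1]
    ring
  rw [h3] at h2
  linarith

lemma sum_chi_E4 (c : Cfg H Q K z) [Fintype ↥Q] :
    ∑ a : ↥Q, chi (a : H) = 2 * ((T Q).ncard : ℤ) - 32 := by
  classical
  have hcard : Fintype.card ↥Q = 32 := by rw [← Nat.card_eq_fintype_card]; exact c.cardQ
  have hT : (T Q).ncard = (Finset.univ.filter (fun a : ↥Q => (a : H) * a = 1)).card := by
    have : T Q = Subtype.val ''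
        ((Finset.univ.filter (fun a : ↥Q => (a : H) * a = 1) : Finset ↥Q) : Set ↥Q) := by
      ext x
      simp only [T, Set.mem_ofPred_eq, Set.mem_image, Finset.coe_filter, Finset.mem_univ, true_and]
      constructor
      · rintro ⟨h1, h2⟩
        exact ⟨⟨x, h1⟩, h2, rfl⟩
      · rintro ⟨a, h1, rfl⟩
        exact ⟨a.2, h1⟩
    rw [this, Set.ncard_image_of_injective _ Subtype.val_injective, Set.ncard_coe_finset]
  have e : ∀ a : ↥Q, chi (a : H) = 2 * (if (a : H) * a = 1 then (1 : ℤ) else 0) - 1 := by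
    intro a
    unfold chi
    split_ifs <;> norm_num
  rw [Finset.sum_congr rfl (fun a _ => e a), Finset.sum_sub_distrib, ← Finset.mul_sum,
    Finset.sum_boole, hT]
  simp [hcard]

lemma sum_chi_psi_E4 (c : Cfg H Q K z) [Fintype ↥Q] (d : H) (hdQ : d ∈ Q) (hd : d * d = 1) :
    ∑ a : ↥Q, chi (a : H) * psi (a : H) d = ∑ a : ↥Q, chi (a : H) := by
  have h2 : ∑ a : ↥Q, chi (a : H) = ∑ a : ↥Q, chi ((a * (⟨d, hdQ⟩ : ↥Q) : ↥Q) : H) :=
    (Equiv.sum_comp (Equiv.mulRight (⟨d, hdQ⟩ : ↥Q)) (fun a : ↥Q => chi (a : H))).symm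
  rw [h2]
  refine Finset.sum_congr rfl fun a _ => ?_
  rw [Subgroup.coe_mul, chi_mul c a.2 hdQ]
  have : chi d = 1 := by unfold chi; rw [if_pos hd]
  rw [this]
  ring

/-- [E4] -/
theorem comm_I (c : Cfg H Q K z) :
    ∀ a ∈ I Q z, ∀ b ∈ I Q z, a * b = b * a → b = a ∨ b = a * z := by
  classical
  have := Fintype.ofFinite ↥Q
  have hcard : Fintype.card ↥Q = 32 := by rw [← Nat.card_eq_fintype_card]; exact c.cardQ
  rintro a ⟨haQ, ha2, ha1, haz⟩ b ⟨hbQ, hb2, hb1, hbz⟩ hab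
  by_contra hcon
  push Not at hcon
  obtain ⟨hba, hbaz⟩ := hcon
  have hai : a⁻¹ = a := inv_eq_of_mul_eq_one_right ha2
  have hdQ : a * b ∈ Q := Q.mul_mem haQ hbQ
  have hd2 : (a * b) * (a * b) = 1 := by rw [sq_mul_comm hab, ha2, hb2, one_mul]
  have hdZ : ¬ (a * b = 1 ∨ a * b = z) := by
    rintro (h | h)
    · apply hba
      rw [← hai]
      exact (inv_eq_of_mul_eq_one_right h).symm
    · apply hbaz
      rw [← h, ← mul_assoc, ha2, one_mul]
  have hS : ∑ x : ↥Q, chi (x : H) = -8 := by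
    rw [sum_chi_E4 c, card_T12 c]
    norm_num
  have hpsi : ∀ x : ↥Q, psi (x : H) (a * b) = psi (x : H) a * psi (x : H) b := by
    intro x
    rw [psi_comm_E4, psi_mul c haQ hbQ x.2, psi_comm_E4 a, psi_comm_E4 b]
  have hsum : ∑ x : ↥Q, (1 + chi (x : H)) * ((1 + psi (x : H) a) * (1 + psi (x : H) b)) = 0 := by
    have e : ∀ x : ↥Q, (1 + chi (x : H)) * ((1 + psi (x : H) a) * (1 + psi (x : H) b))
        = 1 + psi (x : H) a + psi (x : H) b + psi (x : H) (a * b) + chi (x : H)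
          + chi (x : H) * psi (x : H) a + chi (x : H) * psi (x : H) b
          + chi (x : H) * psi (x : H) (a * b) := by
      intro x
      rw [hpsi]
      ring
    rw [Finset.sum_congr rfl (fun x _ => e x)]
    simp only [Finset.sum_add_distrib]
    rw [sum_psi_E4 c a haQ (by tauto), sum_psi_E4 c b hbQ (by tauto), sum_psi_E4 c _ hdQ hdZ,
      sum_chi_psi_E4 c a haQ ha2, sum_chi_psi_E4 c b hbQ hb2, sum_chi_psi_E4 c _ hdQ hd2, hS]
    simp [hcard]
  have hle := Finset.single_le_sum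
    (f := fun x : ↥Q => (1 + chi (x : H)) * ((1 + psi (x : H) a) * (1 + psi (x : H) b)))
    (fun x _ => mul_nonneg (chi_nonneg_E4 _) (mul_nonneg (psi_nonneg_E4 _ _) (psi_nonneg_E4 _ _)))
    (Finset.mem_univ (1 : ↥Q))
  rw [hsum] at hle
  simp [chi, psi] at hle

end Cfsg.Agent.Lib.Helper54.J2Ord
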